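import Cfsg.Agent.H884.ElRows
import Cfsg.Agent.H906.Cov.EKill

/-!
# S3691, orthogonal groups: fields of matrices normalised by a group of isometries (helper964)

* `Iso.map_le` : an endomorphism commuting with an isometry `x` of prime order `r`, `e = ord_r(q)` odd, `dim V < 4 e`, preserves
  the totally singular subspace `W` of dimension `e`;
* `ext_odd` : if such an element normalises a field of degree `s`, then `s ∣ e` (or `r = s`).
-/

set_option autoImplicit false

namespace Cfsg.Agent.H964.Rg

open Module QuadraticMap Cfsg.Geo Cfsg.Agent.LieClassical.OrthCore Cfsg.Agent.H955 Cfsg.Agent.H954.TSing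
  Cfsg.Agent.H884.El
open Cfsg.Agent.H951 (fx cm Inv)
open scoped MatrixGroups Matrix

universe u v

section Abs

variable {F : Type u} [Field F] [Fintype F] {V : Type v} [AddCommGroup V] [Module F V] [FiniteDimensional F V]
  {Q : QuadraticForm F V} {x : Module.End F V} {r e : ℕ}

/-- `J` commutes with an isometry whose commutator space is a sum of two odd-dimensional irreducible totally singular
subspaces: `J` preserves the summand. -/
theorem map_le (h : Iso Q x r) (hQ : Nondeg Q) (hr : PP (Nat.card F) e r) (he : Odd e)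
    (he1 : 3 ≤ e) (hcm : finrank F (cm x) = 2 * e) {W : Submodule F V} (hWcm : W ≤ cm x) (hW : Inv x W) (hWs : TS Q W)
    (hWd : finrank F W = e) {J : Module.End F V} (hJx : ∀ v, J (x v) = x (J v)) : ∀ w ∈ W, J w ∈ W := by
  have hprime := Fact.mk h.prime
  have hfin : Finite V := Module.finite_of_finite F
  have hWne : W ≠ ⊥ := by
    rintro rfl
    rw [finrank_bot] at hWd
    omega
  -- `W` is irreducible
  have hirr : ∀ U : Submodule F V, U ≤ W → Inv x U → U = ⊥ ∨ U = W := by
    intro U hU hUi
    have h1 := h.dvd hr hUi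
    rw [inf_eq_left.2 (hU.trans hWcm)] at h1
    have h2 := Submodule.finrank_mono hU
    rcases Nat.eq_zero_or_pos (finrank F U) with h0 | h0
    · exact Or.inl (Submodule.finrank_eq_zero.1 h0)
    · right
      have := Nat.le_of_dvd h0 h1
      exact Submodule.eq_of_le_of_finrank_eq hU (by omega)
  by_contra hJW
  -- the form `polar u (J v)`
  let c : LinearMap.BilinForm F V := LinearMap.BilinForm.comp (polarBilin Q) LinearMap.id J
  have hc : ∀ u v, c u v = polar Q u (J v) := fun u v => rfl
  have hinv : ∀ u v, c (x u) (x v) = c u v := by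
    intro u v
    rw [hc, hc, hJx, polar_isom h.iso]
  have hnd : ∀ v ∈ W, (∀ u ∈ W, c u v = 0) → v = 0 := by
    let N : Submodule F V :=
      { carrier := {v | v ∈ W ∧ ∀ u ∈ W, c u v = 0}
        add_mem' := fun {a b} ha hb => ⟨W.add_mem ha.1 hb.1, fun u hu => by
          rw [map_add, ha.2 u hu, hb.2 u hu, add_zero]⟩
        zero_mem' := ⟨W.zero_mem, fun u _ => map_zero _⟩
        smul_mem' := fun a v hv => ⟨W.smul_mem a hv.1, fun u hu => by
          rw [map_smul, hv.2 u hu, smul_zero]⟩ }
    have hNW : N ≤ W := fun v hv => hv.1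
    have hNi : Inv x N := by
      rintro v ⟨hv, hv2⟩
      refine ⟨hW v hv, fun u hu => ?_⟩
      -- `u = x u'`
      obtain ⟨u', hu', rfl⟩ : ∃ u' ∈ W, x u' = u := by
        refine ⟨(x ^ (r - 1)) u, hW.pow _ u hu, ?_⟩
        rw [← Module.End.mul_apply, ← pow_succ', Nat.sub_add_cancel h.prime.one_le, h.pow]
        rfl
      rw [hinv]
      exact hv2 u' hu'
    rcases hirr N hNW hNi with hN | hN
    · intro v hv hv2
      have : v ∈ N := ⟨hv, hv2⟩
      rw [hN] at this
      exact (Submodule.mem_bot F).1 this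
    · exfalso
      apply hJW
      -- `J W` lies in the perp of `W` inside `cm x`
      have hperp : ∀ w ∈ W, ∀ u ∈ W, polar Q u (J w) = 0 := by
        intro w hw u hu
        rw [← hN] at hw
        exact hw.2 u hu
      have hJcm : ∀ w ∈ W, J w ∈ cm x := by
        intro w hw
        obtain ⟨y, hy⟩ := H951.mem_cm.1 (hWcm hw)
        refine H951.mem_cm.2 ⟨J y, ?_⟩
        rw [← hJx, ← map_sub, hy]
      have hcmn := nondeg_cm hQ h.iso h.ne0 h.pow
      have h1 := finrank_inf_perp hcmn hWcm
      have h2 : W ≤ cm x ⊓ perp Q W := by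
        intro w hw
        exact ⟨hWcm hw, fun u hu => hWs.polar hu hw⟩
      have h3 : W = cm x ⊓ perp Q W := by
        apply Submodule.eq_of_le_of_finrank_eq h2
        omega
      intro w hw
      rw [h3]
      exact ⟨hJcm w hw, fun u hu => hperp w hw u hu⟩
  have h2 : r ≠ 2 := by have := h.two_lt; omega
  have hev := H200.LinFix.even_of_irr (l := r) h2 h.ne0 (y := x) h.pow (W := W) hWcm hW
    (fun s hs hi => hirr s hs hi) hWne c (fun u _ v _ => hinv u v) hnd
  rw [hWd] at hev
  exact (Nat.not_even_iff_odd.2 he) hev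

end Abs

section Mat

variable {ι : Type} [Fintype ι] [DecidableEq ι] {F : Type u} [Field F] [Fintype F] {Q : QuadraticForm F (ι → F)}
  {H : Subgroup (GL ι F)} {r e : ℕ}

/-- a field of degree `s` normalised by an isometry of prime order `r`, `ord_r(q)` odd -/
theorem ext_odd_elt (hQ : Nondeg Q) {g : GL ι F} (hiso : Iso Q (lin g) r) (hg1 : g ≠ 1) (hgr : g ^ r = 1)
    (hr : PP (Nat.card F) e r) (he : Odd e) (he3 : 3 ≤ e) (hn : Fintype.card ι < 4 * e) {s : ℕ} (hs : s.Prime)
    {K : Subalgebra F (Matrix ι ι F)} (hK : IsFieldSubalgebra s K) (hgK : g ∈ subalgebraNormalizer K) :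
    r = s ∨ s ∣ e := by
  by_cases hrs : r = s
  · exact Or.inl hrs
  right
  have hne : Nonempty ι := by
    by_contra h
    rw [not_nonempty_iff] at h
    exact hg1 (Subsingleton.elim _ _)
  have hcomm := comm_field hs hK hgK hr.prime hrs hgr
  obtain ⟨hcm, -, W, hWcm, hW, hWs, hWd⟩ := hiso.odd_case hQ (lin_ne_one hg1) hr he (by
    rw [Module.finrank_fintype_fun_eq_card]; exact hn)
  rw [← hWd]
  refine H906.Cov.dvd_finrank_of_invariant hK W fun k hk w hw => ?_
  have h1 := map_le hiso hQ hr he he3 hcm hWcm hW hWs hWd (J := Matrix.toLin' k) (fun v => by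
    rw [lin, Matrix.toLin'_apply, Matrix.toLin'_apply, Matrix.toLin'_apply, Matrix.toLin'_apply,
      Matrix.mulVec_mulVec, Matrix.mulVec_mulVec, hcomm k hk]) w hw
  rwa [Matrix.toLin'_apply] at h1

/-- **a field of degree `s` normalised by a group of isometries** whose order is divisible by a primitive prime divisor of
`q ^ e - 1`, `e` odd, `n < 4 e` -/
theorem ext_odd (hQ : Nondeg Q) (hH : H ≤ Cfsg.isometryGroup F (⇑Q)) (hr : PP (Nat.card F) e r)
    (he : Odd e) (he3 : 3 ≤ e) (hn : Fintype.card ι < 4 * e) (hdvd : r ∣ Nat.card H) {s : ℕ} (hs : s.Prime)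
    {K : Subalgebra F (Matrix ι ι F)} (hK : IsFieldSubalgebra s K) (hHK : H ≤ subalgebraNormalizer K) :
    r = s ∨ s ∣ e := by
  obtain ⟨g, hgH, hiso, hgr, hg1⟩ := exists_elt hH hr (by omega) hdvd
  exact ext_odd_elt hQ hiso hg1 hgr hr he he3 hn hs hK (hHK hgH)

end Mat

end Cfsg.Agent.H964.Rg
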